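import Mathlib

/-!
helper29: a finite-order ring automorphism of a Noetherian local ring that acts trivially on the
residue field and on the cotangent space, and whose order is invertible, is the identity.
-/

namespace Groth.Agent.Lib.Helper29

open IsLocalRing

theorem smul_eq_self_of_cotangent {A : Type*} [CommRing A] [IsLocalRing A] [IsNoetherianRing A]
    {G : Type*} [Group G] [MulSemiringAction G A] (g : G)
    (hunit : IsUnit (orderOf g : A))
    (h0 : ∀ x : A, g • x - x ∈ maximalIdeal A)
    (h1 : ∀ a ∈ maximalIdeal A, g • a - a ∈ maximalIdeal A ^ 2) (a : A) :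
    g • a = a := by
  set m := maximalIdeal A with hm
  have L1 : ∀ i : ℕ, ∀ x ∈ m ^ i, g • x - x ∈ m ^ (i + 1) := by
    intro i
    induction i with
    | zero => intro x _; simpa using h0 x
    | succ i ih =>
      intro x hx
      rw [pow_succ'] at hx
      refine Submodule.mul_induction_on hx ?_ ?_
      · intro a ha b hb
        have e : g • (a * b) - a * b = (g • a - a) * (g • b) + a * (g • b - b) := by
          rw [smul_mul']; ring
        rw [e]
        have hgb : g • b ∈ m ^ i := by
          have h' : g • b = (g • b - b) + b := by ring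
          rw [h']
          exact Ideal.add_mem _ (Ideal.pow_le_pow_right (Nat.le_succ i) (ih b hb)) hb
        refine Ideal.add_mem _ ?_ ?_
        · have := Ideal.mul_mem_mul (h1 a ha) hgb
          rw [← pow_add] at this
          exact (Ideal.pow_le_pow_right (by omega)) this
        · have := Ideal.mul_mem_mul ha (ih b hb)
          rw [← pow_succ'] at this
          exact this
      · intro x y hx hy
        have e : g • (x + y) - (x + y) = (g • x - x) + (g • y - y) := by rw [smul_add]; ring
        rw [e]; exact Ideal.add_mem _ hx hy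
  have F2 : ∀ i : ℕ, ∀ x ∈ m ^ i, g • x ∈ m ^ i := by
    intro i x hx
    have h' : g • x = (g • x - x) + x := by ring
    rw [h']; exact Ideal.add_mem _ (Ideal.pow_le_pow_right (Nat.le_succ i) (L1 i x hx)) hx
  have L2 : ∀ i : ℕ, ∀ x ∈ m ^ i, ∀ l : ℕ, (g ^ l) • x - x ∈ m ^ (i + 1) := by
    intro i x hx l
    induction l with
    | zero => simp
    | succ l ih =>
      rw [pow_succ' g l, mul_smul]
      have e : g • (g ^ l • x) - x = g • (g ^ l • x - x) + (g • x - x) := by rw [smul_sub]; ring
      rw [e]
      exact Ideal.add_mem _ (F2 _ _ ih) (L1 i x hx)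
  have main : ∀ i : ℕ, g • a - a ∈ m ^ i := by
    intro i
    induction i with
    | zero => simp
    | succ i ih =>
      set y := g • a - a with hy
      have htel : ∑ l ∈ Finset.range (orderOf g), (g ^ l) • y = 0 := by
        have : ∀ l, (g ^ l) • y = g ^ (l+1) • a - g ^ l • a := by
          intro l; rw [hy, smul_sub, ← mul_smul, ← pow_succ]
        simp only [this]
        rw [Finset.sum_range_sub (fun l => g ^ l • a), pow_orderOf_eq_one, one_smul, pow_zero,
          one_smul, sub_self]
      have hsum : ∑ l ∈ Finset.range (orderOf g), ((g ^ l) • y - y) ∈ m ^ (i + 1) :=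
        Ideal.sum_mem _ (fun l _ => L2 i y ih l)
      rw [Finset.sum_sub_distrib, htel, Finset.sum_const, Finset.card_range, zero_sub,
        nsmul_eq_mul] at hsum
      have hNy : (orderOf g : A) * y ∈ m ^ (i+1) := by
        exact neg_mem_iff.mp hsum
      obtain ⟨u, hu⟩ := hunit
      have : y = (↑u⁻¹ : A) * ((orderOf g : A) * y) := by
        rw [← hu, ← mul_assoc, Units.inv_mul, one_mul]
      rw [this]; exact Ideal.mul_mem_left _ _ hNy
  have hbot : g • a - a ∈ (⨅ i : ℕ, m ^ i) := Submodule.mem_iInf _ |>.mpr main
  rw [Ideal.iInf_pow_eq_bot_of_isLocalRing m (maximalIdeal.isMaximal A).ne_top] at hbot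
  exact sub_eq_zero.mp hbot

end Groth.Agent.Lib.Helper29
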